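import Mathlib
import Cfsg.Agent.Lib.McLRank3.Twist
import Cfsg.Agent.Lib.Sporadic.LeechMcTs

/-!
# The rank 3 recognition of the McLaughlin group: the isomorphism of the graphs, and the conclusion
-/

set_option autoImplicit false
set_option maxRecDepth 100000

namespace Cfsg.Agent.Lib.McLRank3.Spread

open Cfsg Cfsg.Agent.Lib.Compute.PermCert Cfsg.Agent.Lib.McLRank3.Data Cfsg.Agent.Lib.McLRank3.Comp
  Cfsg.Agent.Lib.McLRank3.Comp2 Cfsg.Agent.Lib.McLRank3.Check Cfsg.Agent.Lib.McLRank3.Abstract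
  Cfsg.Agent.Lib.McLRank3.Main Cfsg.Agent.Lib.McLRank3.Twist MulAction Finset

variable {Ω : Type*} [Fintype Ω] [DecidableEq Ω] {G : Subgroup (Equiv.Perm Ω)} {a : Ω} {Γ : SimpleGraph Ω}
  [DecidableRel Γ.Adj]

/-! ### The search -/

theorem bit_sM (z j : Nat) : bit (sM z) j = (adjN z j && bit Y1M j) := by
  unfold sM
  rw [bit_land]
  rfl

theorem inO0_spec {m : Nat} (h : inO0 m = true) : ∃ z : Fin 275, z ≠ 0 ∧ adjN 0 z = false ∧ m = sM z := by
  obtain ⟨z, hz, h1⟩ := anyB_iff _ _ h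
  simp only [Bool.and_eq_true] at h1
  have hY := beq_iff_eq.1 ((allB_iff _ _).1 mask_Y2 z hz)
  rw [h1.1] at hY
  have hY' := hY.symm
  simp only [Bool.and_eq_true, Bool.not_eq_true'] at hY'
  refine ⟨⟨z, hz⟩, ?_, hY'.2, Nat.eq_of_beq_eq_true h1.2⟩
  intro e
  have e' : z = 0 := congrArg Fin.val e
  rw [e'] at hY'
  exact absurd hY'.1 (by decide)

theorem imgA_go (e : Elt) (m j : Nat) (l : List Nat) (acc : Nat) :
    bit (l.foldl (fun acc y => cond (bit m y) (Nat.lor acc (Nat.pow 2 (get 9 511 e.f y))) acc) acc) j = true ↔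
      bit acc j = true ∨ ∃ u ∈ l, bit m u = true ∧ get 9 511 e.f u = j := by
  induction l generalizing acc with
  | nil => simp
  | cons x l ih =>
    rw [List.foldl_cons, ih]
    by_cases hb : bit m x = true
    · simp only [hb, cond_true]
      rw [bit_lor, Bool.or_eq_true, bit_pow]
      constructor
      · rintro ((h | h) | ⟨u, hu, h⟩)
        · exact Or.inl h
        · exact Or.inr ⟨x, List.mem_cons_self, hb, h.symm⟩
        · exact Or.inr ⟨u, List.mem_cons_of_mem _ hu, h⟩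
      · rintro (h | ⟨u, hu, h⟩)
        · exact Or.inl (Or.inl h)
        · rcases List.mem_cons.1 hu with rfl | hu
          · exact Or.inl (Or.inr h.2.symm)
          · exact Or.inr ⟨u, hu, h⟩
    · simp only [Bool.not_eq_true] at hb
      simp only [hb, cond_false]
      constructor
      · rintro (h | ⟨u, hu, h⟩)
        · exact Or.inl h
        · exact Or.inr ⟨u, List.mem_cons_of_mem _ hu, h⟩
      · rintro (h | ⟨u, hu, h⟩)
        · exact Or.inl h
        · rcases List.mem_cons.1 hu with rfl | hu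
          · rw [hb] at h
            exact absurd h.1 (by simp)
          · exact Or.inr ⟨u, hu, h⟩

theorem imgA_perm {e : Elt} (hv : validB 9 511 275 e = true) (m : Nat) (u : Fin 275) :
    bit (imgA e m) (permOf 9 511 275 e u) = true ↔ bit m u = true := by
  unfold imgA
  rw [imgA_go]
  constructor
  · rintro (h | ⟨u', hu', h, e'⟩)
    · rw [bit_zero] at h
      exact absurd h (by simp)
    · have hlt : u' < 275 := List.mem_range.1 hu'
      have e2 : permOf 9 511 275 e ⟨u', hlt⟩ = permOf 9 511 275 e u := by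
        apply Fin.ext
        rw [permOf_apply hv]
        exact e'
      have e3 := (permOf 9 511 275 e).injective e2
      rw [← e3]
      exact h
  · intro h
    exact Or.inr ⟨u, List.mem_range.2 u.2, h, (permOf_apply hv u).symm⟩

theorem line_logic (Z : Nat → Prop) (p q r s : Nat) (h1 : ¬(Z p ∧ Z q ∧ Z r)) (h2 : ¬(Z p ∧ Z q ∧ Z s))
    (h3 : ¬(Z p ∧ Z r ∧ Z s)) (h4 : ¬(Z q ∧ Z r ∧ Z s)) (x y z : Nat) (hx : x = p ∨ x = q ∨ x = r ∨ x = s)
    (hy : y = p ∨ y = q ∨ y = r ∨ y = s) (hz : z = p ∨ z = q ∨ z = r ∨ z = s) (hxy : x ≠ y) (hxz : x ≠ z)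
    (hyz : y ≠ z) : ¬(Z x ∧ Z y ∧ Z z) := by
  rcases hx with rfl | rfl | rfl | rfl <;> rcases hy with rfl | rfl | rfl | rfl <;>
    rcases hz with rfl | rfl | rfl | rfl <;>
    first
    | exact absurd rfl hxy
    | exact absurd rfl hxz
    | exact absurd rfl hyz
    | tauto

theorem inLine_spec {x : Nat} {l : Nat × Nat × Nat × Nat} (h : inLine x l = true) :
    x = l.1 ∨ x = l.2.1 ∨ x = l.2.2.1 ∨ x = l.2.2.2 := by
  simp only [inLine, Bool.or_eq_true, Nat.beq_eq] at h
  tauto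

theorem classify {β : Fin 275 → Ω} (hΓ : Γ.IsSRGWith 275 112 30 56) (h : Good G a Γ β) (c : Ω) (hca : c ≠ a)
    (hnc : ¬ Γ.Adj a c) :
    ∃ β', Good G a Γ β' ∧ ∃ z : Fin 275, z ≠ 0 ∧ adjN 0 z = false ∧
      ∀ y : Fin 275, adjN 0 y = true → (Γ.Adj (β' y) c ↔ adjN y z = true) := by
  classical
  let T : Nat → Prop := fun j => j < 275 ∧ adjN 0 j = true ∧ Γ.Adj (β (fo j)) c
  -- the facts on one line
  have hline : ∀ l ∈ lineL, (¬(T l.1 ∧ T l.2.1 ∧ T l.2.2.1) ∧ ¬(T l.1 ∧ T l.2.1 ∧ T l.2.2.2) ∧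
      ¬(T l.1 ∧ T l.2.2.1 ∧ T l.2.2.2) ∧ ¬(T l.2.1 ∧ T l.2.2.1 ∧ T l.2.2.2)) ∧
      (¬((¬ T l.1) ∧ (¬ T l.2.1) ∧ (¬ T l.2.2.1)) ∧ ¬((¬ T l.1) ∧ (¬ T l.2.1) ∧ (¬ T l.2.2.2)) ∧
      ¬((¬ T l.1) ∧ (¬ T l.2.2.1) ∧ (¬ T l.2.2.2)) ∧ ¬((¬ T l.2.1) ∧ (¬ T l.2.2.1) ∧ (¬ T l.2.2.2))) := by
    rintro ⟨p, q, r, s⟩ hl
    have hok := List.all_eq_true.1 lines_ok _ hl
    simp only [lineOK, Bool.and_eq_true, Nat.blt_eq] at hok
    obtain ⟨⟨⟨⟨⟨⟨⟨⟨⟨⟨⟨⟨⟨hp, hq⟩, hr⟩, hs⟩, yp⟩, yq⟩, yr⟩, ys⟩, apq⟩, apr⟩, aps⟩, aqr⟩, aqs⟩, ars⟩ := hok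
    have vp := fo_val hp
    have vq := fo_val hq
    have vr := fo_val hr
    have vs := fo_val hs
    have Yp : adjN 0 (fo p) = true := by rw [vp]; exact yp
    have Yq : adjN 0 (fo q) = true := by rw [vq]; exact yq
    have Yr : adjN 0 (fo r) = true := by rw [vr]; exact yr
    have Ys : adjN 0 (fo s) = true := by rw [vs]; exact ys
    have hap := h.maps _ Yp
    have haq := h.maps _ Yq
    have har := h.maps _ Yr
    have has := h.maps _ Ys
    have hpq := (h.adj _ _ Yp Yq).2 (by rw [vp, vq]; exact apq)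
    have hpr := (h.adj _ _ Yp Yr).2 (by rw [vp, vr]; exact apr)
    have hps := (h.adj _ _ Yp Ys).2 (by rw [vp, vs]; exact aps)
    have hqr := (h.adj _ _ Yq Yr).2 (by rw [vq, vr]; exact aqr)
    have hqs := (h.adj _ _ Yq Ys).2 (by rw [vq, vs]; exact aqs)
    have hrs := (h.adj _ _ Yr Ys).2 (by rw [vr, vs]; exact ars)
    have t1 := two_props hΓ hap haq har has hpq hpr hps hqr hqs hrs hca hnc
    have t2 := two_props hΓ hap haq has har hpq hps hpr hqs hqr hrs.symm hca hnc
    have t3 := two_props hΓ hap har has haq hpr hps hpq hrs hqr.symm hqs.symm hca hnc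
    have t4 := two_props hΓ haq har has hap hqr hqs hpq.symm hrs hpr.symm hps.symm hca hnc
    have Tp : T p ↔ Γ.Adj (β (fo p)) c := ⟨fun t => t.2.2, fun t => ⟨hp, yp, t⟩⟩
    have Tq : T q ↔ Γ.Adj (β (fo q)) c := ⟨fun t => t.2.2, fun t => ⟨hq, yq, t⟩⟩
    have Tr : T r ↔ Γ.Adj (β (fo r)) c := ⟨fun t => t.2.2, fun t => ⟨hr, yr, t⟩⟩
    have Ts : T s ↔ Γ.Adj (β (fo s)) c := ⟨fun t => t.2.2, fun t => ⟨hs, ys, t⟩⟩
    have n3 : ∀ {A B C : Prop}, (A ∨ B ∨ C) → ¬((¬ A) ∧ (¬ B) ∧ (¬ C)) := by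
      intro A B C h h'
      obtain ⟨h1, h2, h3⟩ := h'
      rcases h with h | h | h
      · exact h1 h
      · exact h2 h
      · exact h3 h
    simp only [Tp, Tq, Tr, Ts]
    exact ⟨⟨t1.1, t2.1, t3.1, t4.1⟩, n3 t1.2, n3 t2.2, n3 t3.2, n3 t4.2⟩
  have hsame : ∀ x y ℓ, OnL x ℓ → OnL y ℓ → ∃ l ∈ lineL, inLine x l = true ∧ inLine y l = true := by
    rintro x y ℓ ⟨l, hl, hx⟩ ⟨l', hl', hy⟩
    have e : l = l' := Option.some.inj (hl.symm.trans hl')
    subst e
    exact ⟨l, List.mem_of_getElem? hl, hx, hy⟩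
  have hT : NoThree T := by
    rintro x y z ℓ hx hy hz hxy hxz hyz
    obtain ⟨l, hl, h1, h2⟩ := hsame x y ℓ hx hy
    obtain ⟨l', hl', h3, h4⟩ := hsame x z ℓ hx hz
    obtain ⟨l0, hl0, h5⟩ := hx
    obtain ⟨l1, hl1, h6⟩ := hy
    obtain ⟨l2, hl2, h7⟩ := hz
    have e1 : l0 = l1 := Option.some.inj (hl0.symm.trans hl1)
    have e2 : l0 = l2 := Option.some.inj (hl0.symm.trans hl2)
    subst e1
    subst e2
    have hf := (hline l0 (List.mem_of_getElem? hl0)).1
    exact line_logic T _ _ _ _ hf.1 hf.2.1 hf.2.2.1 hf.2.2.2 x y z (inLine_spec h5) (inLine_spec h6) (inLine_spec h7)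
      hxy hxz hyz
  have hF : NoThree (fun j => ¬ T j) := by
    rintro x y z ℓ hx hy hz hxy hxz hyz
    obtain ⟨l0, hl0, h5⟩ := hx
    obtain ⟨l1, hl1, h6⟩ := hy
    obtain ⟨l2, hl2, h7⟩ := hz
    have e1 : l0 = l1 := Option.some.inj (hl0.symm.trans hl1)
    have e2 : l0 = l2 := Option.some.inj (hl0.symm.trans hl2)
    subst e1
    subst e2
    have hf := (hline l0 (List.mem_of_getElem? hl0)).2
    exact line_logic (fun j => ¬ T j) _ _ _ _ hf.1 hf.2.1 hf.2.2.1 hf.2.2.2 x y z (inLine_spec h5) (inLine_spec h6)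
      (inLine_spec h7) hxy hxz hyz
  have hI : ∀ Z : Nat → Prop, Inv (fun _ => False) Z 0 0 := by
    intro Z
    constructor
    · intro ℓ hℓ
      rw [bit_zero] at hℓ
      exact absurd hℓ (by simp)
    · intro ℓ hℓ
      rw [bit_zero] at hℓ
      exact absurd hℓ (by simp)
  obtain ⟨m, hm, hspec⟩ := dfs2_complete T hT hF ordL ord_nodup (fun _ => False) (fun _ _ h => h) 0 0 0 0 0 (hI _) (hI _)
    (fun j hj => by
      rw [bit_zero] at hj
      exact absurd hj (by simp))
  have hgood := List.all_eq_true.1 dfs_good m hm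
  have hbit : ∀ y : Fin 275, adjN 0 y = true → (bit m y = true ↔ Γ.Adj (β y) c) := by
    intro y hy
    rw [hspec, bit_zero]
    have hfo : fo y = y := Fin.ext (fo_val y.2)
    have ho : (y : ℕ) ∈ ordL := by
      have h1 := beq_iff_eq.1 ((allB_iff _ _).1 ord_all y y.2)
      rw [hy, bit_maskL] at h1
      exact h1
    constructor
    · rintro (h1 | ⟨-, -, -, h1⟩)
      · exact absurd h1 (by simp)
      · rwa [hfo] at h1
    · intro h1
      exact Or.inr ⟨ho, y.2, hy, by rwa [hfo]⟩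
  -- the bits of the neighbourhoods
  have hs : ∀ (z y : Fin 275), adjN 0 y = true → (bit (sM z) y = true ↔ adjN y z = true) := by
    intro z y hy
    rw [bit_sM, Bool.and_eq_true, adj_comm' z y]
    have h1 := beq_iff_eq.1 ((allB_iff _ _).1 mask_Y1 y y.2)
    rw [h1, hy]
    simp
  have hcase : ∀ (e : Elt) (es' : List Elt), twistB e es' = true → es'.all inP = true → inO0 (imgA e m) = true →
      ∃ β', Good G a Γ β' ∧ ∃ z : Fin 275, z ≠ 0 ∧ adjN 0 z = false ∧
        ∀ y : Fin 275, adjN 0 y = true → (Γ.Adj (β' y) c ↔ adjN y z = true) := by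
    intro e es' hE hin h0
    have hv : validB 9 511 275 e = true := by
      simp only [twistB, Bool.and_eq_true] at hE
      exact hE.1.1.1.1
    have hgt := h.twist e es' hE hin
    obtain ⟨z, hz, hz', e'⟩ := inO0_spec h0
    refine ⟨_, hgt, z, hz, hz', ?_⟩
    intro y hy
    have hYi : adjN 0 ((permOf 9 511 275 e)⁻¹ y) = true := by
      have h1 := hgt.maps y hy
      by_contra hne
      simp only [Bool.not_eq_true] at hne
      have h2 : twistB e es' = true := hE
      simp only [twistB, Bool.and_eq_true] at h2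
      have h3 := beq_iff_eq.1 ((allB_iff _ _).1 h2.1.1.1.2 ((permOf 9 511 275 e)⁻¹ y) ((permOf 9 511 275 e)⁻¹ y).2)
      rw [← permOf_apply hv, ap_inv, hne, hy] at h3
      exact absurd h3 (by simp)
    show Γ.Adj (β ((permOf 9 511 275 e)⁻¹ y)) c ↔ _
    rw [← hbit _ hYi, ← imgA_perm hv, ap_inv, e', hs z y hy]
  simp only [goodB, Bool.or_eq_true] at hgood
  rcases hgood with ((h0 | h0) | h0) | h0
  · obtain ⟨z, hz, hz', e'⟩ := inO0_spec h0
    refine ⟨β, h, z, hz, hz', ?_⟩
    intro y hy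
    rw [← hbit y hy, e', hs z y hy]
  · exact hcase _ _ tw1 pp1_ok h0
  · exact hcase _ _ tw2 pp2_ok h0
  · exact hcase _ _ tw3 pp3_ok h0

/-! ### The isomorphism of the graphs -/

theorem exists_iso {β : Fin 275 → Ω} (hΓ : Γ.IsSRGWith 275 112 30 56)
    (hinv : ∀ (g : G) (x y : Ω), Γ.Adj (g • x) (g • y) ↔ Γ.Adj x y) (h : Good G a Γ β) (c : Ω) (hca : c ≠ a)
    (hnc : ¬ Γ.Adj a c) (z₀ : Fin 275) (hz₀ : z₀ ≠ 0) (hz₀' : adjN 0 z₀ = false)
    (hT : ∀ y : Fin 275, adjN 0 y = true → (Γ.Adj (β y) c ↔ adjN y z₀ = true)) :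
    ∃ f : Fin 275 ≃ Ω, ∀ x y, Γ.Adj (f x) (f y) ↔ adjN x y = true := by
  classical
  -- the property of a point of the second orbit
  let W : Fin 275 → Ω → Prop := fun z c' =>
    c' ≠ a ∧ ¬ Γ.Adj a c' ∧ ∀ y : Fin 275, adjN 0 y = true → (Γ.Adj (β y) c' ↔ adjN y z = true)
  have hkey : ∀ p ∈ PP, ∀ g : G, g • a = a → (∀ y : Fin 275, adjN 0 y = true → β (p y) = g • β y) → ∀ z c', W z c' →
      W (p z) (g • c') := by
    intro p hp g hga hg z c' hw
    refine ⟨?_, ?_, ?_⟩
    · intro e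
      exact hw.1 (MulAction.injective g (e.trans hga.symm))
    · intro e
      rw [← hga, hinv] at e
      exact hw.2.1 e
    · intro y hy
      have hu : adjN 0 (p⁻¹ y) = true := by
        rw [← Y1_inv hp]
        simpa using hy
      have e1 := hg _ hu
      have e2 : p (p⁻¹ y) = y := by simp
      rw [e2] at e1
      rw [e1, hinv, hw.2.2 _ hu, ← adj_eq hp, e2]
  have hex : ∀ z : Fin 275, ∃ c', (z ≠ 0 → adjN 0 z = false → W z c') := by
    intro z
    by_cases hz : z ≠ 0 ∧ adjN 0 z = false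
    · obtain ⟨q, hq, e⟩ := tr2 z hz.1 hz.2
      obtain ⟨q', hq', e'⟩ := tr2 z₀ hz₀ hz₀'
      have hp := PP.mul_mem hq (PP.inv_mem hq')
      obtain ⟨g, hga, hg⟩ := h.equi _ hp
      refine ⟨g • c, fun _ _ => ?_⟩
      have := hkey _ hp g hga hg z₀ c ⟨hca, hnc, hT⟩
      have e2 : (q * q'⁻¹) z₀ = z := by
        rw [Equiv.Perm.mul_apply, ← e', inv_ap, e]
      rwa [e2] at this
    · exact ⟨a, fun h1 h2 => (hz ⟨h1, h2⟩).elim⟩
  choose cf hcf using hex
  -- the separation of the second orbit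
  have hsep : ∀ (z z' : Fin 275) (c' : Ω), z ≠ 0 → adjN 0 z = false → z' ≠ 0 → adjN 0 z' = false → W z c' → W z' c' → z = z' := by
    intro z z' c' h1 h2 h3 h4 h5 h6
    by_contra hne
    obtain ⟨p, hp, e⟩ := tr2 z h1 h2
    have hu := (Y2_inv (PP.inv_mem hp) z').2 ⟨h3, h4⟩
    have hne' : ((p⁻¹ z' : Fin 275) : ℕ) ≠ z0 := by
      intro e2
      apply hne
      have e3 : p⁻¹ z' = fo z0 := Fin.ext (by rw [e2, fo_z0])
      rw [← e, ← e3]
      simp
    obtain ⟨y, hy, hyne⟩ := sep_Y2 _ hu.1 hu.2 hne'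
    have hy' : adjN 0 (p y) = true := by rw [Y1_inv hp]; exact hy
    apply hyne
    have e1 := h5.2.2 _ hy'
    have e2 := h6.2.2 _ hy'
    have e3 := Bool.eq_iff_iff.2 (e1.symm.trans e2)
    have e4 := adj_eq hp y (fo z0)
    have e5 := adj_eq hp y (p⁻¹ z')
    rw [e, fo_z0] at e4
    have e6 : p (p⁻¹ z') = z' := by simp
    rw [e6] at e5
    rw [← e4, ← e5]
    exact e3
  let f0 : Fin 275 → Ω := fun x => if x = 0 then a else if adjN 0 x = true then β x else cf x
  have hself : adjN 0 (0 : Fin 275) = false := adj_self 0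
  have f00 : f0 0 = a := if_pos rfl
  have ne0 : ∀ y : Fin 275, adjN 0 y = true → y ≠ 0 := by
    rintro _ hy rfl
    rw [hself] at hy
    exact absurd hy (by simp)
  have f01 : ∀ y : Fin 275, adjN 0 y = true → f0 y = β y := by
    intro y hy
    simp only [f0, if_neg (ne0 y hy), hy, if_true]
  have f02 : ∀ z : Fin 275, z ≠ 0 → adjN 0 z = false → f0 z = cf z := by
    intro z hz hz'
    simp only [f0, if_neg hz, hz', Bool.false_eq_true, if_false]
  have hW2 : ∀ z : Fin 275, z ≠ 0 → adjN 0 z = false → W z (f0 z) := by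
    intro z hz hz'
    rw [f02 z hz hz']
    exact hcf z hz hz'
  have tri : ∀ x : Fin 275, x = 0 ∨ adjN 0 x = true ∨ (x ≠ 0 ∧ adjN 0 x = false) := by
    intro x
    by_cases h0 : x = 0
    · exact Or.inl h0
    · by_cases h1 : adjN 0 x = true
      · exact Or.inr (Or.inl h1)
      · exact Or.inr (Or.inr ⟨h0, by simpa using h1⟩)
  have hinj : Function.Injective f0 := by
    intro x y e
    rcases tri x with rfl | hx | ⟨hx, hx'⟩ <;> rcases tri y with rfl | hy | ⟨hy, hy'⟩
    · rfl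
    · exfalso
      rw [f00, f01 y hy] at e
      have := h.maps y hy
      rw [← e] at this
      exact Γ.loopless.irrefl _ this
    · exfalso
      rw [f00] at e
      exact (hW2 y hy hy').1 e.symm
    · exfalso
      rw [f00, f01 x hx] at e
      have := h.maps x hx
      rw [e] at this
      exact Γ.loopless.irrefl _ this
    · rw [f01 x hx, f01 y hy] at e
      exact h.inj x y hx hy e
    · exfalso
      rw [f01 x hx] at e
      have := h.maps x hx
      rw [e] at this
      exact (hW2 y hy hy').2.1 this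
    · exfalso
      rw [f00] at e
      exact (hW2 x hx hx').1 e
    · exfalso
      rw [f01 y hy] at e
      have := h.maps y hy
      rw [← e] at this
      exact (hW2 x hx hx').2.1 this
    · refine hsep x y (f0 x) hx hx' hy hy' (hW2 x hx hx') ?_
      rw [e]
      exact hW2 y hy hy'
  have hbij : Function.Bijective f0 :=
    (Fintype.bijective_iff_injective_and_card f0).2 ⟨hinj, by rw [Fintype.card_fin, hΓ.card]⟩
  -- the equivariance
  have hequi : ∀ p ∈ PP, ∃ g : G, g • a = a ∧ ∀ x, f0 (p x) = g • f0 x := by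
    intro p hp
    obtain ⟨g, hga, hg⟩ := h.equi p hp
    refine ⟨g, hga, ?_⟩
    intro x
    rcases tri x with rfl | hx | ⟨hx, hx'⟩
    · rw [PP_fix0 hp, f00, hga]
    · rw [f01 x hx, f01 _ (by rw [Y1_inv hp]; exact hx), hg x hx]
    · have hw := hkey p hp g hga hg x _ (hW2 x hx hx')
      obtain ⟨w, hw'⟩ := hbij.2 (g • f0 x)
      have hpx := (Y2_inv hp x).2 ⟨hx, hx'⟩
      rw [← hw']
      rw [← hw'] at hw
      have hw0 : w ≠ 0 := by
        rintro rfl
        rw [f00] at hw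
        exact hw.1 rfl
      have hw1 : adjN 0 w = false := by
        by_contra hn
        have hn' : adjN 0 w = true := by simpa using hn
        rw [f01 w hn'] at hw
        exact hw.2.1 (h.maps w hn')
      have := hsep (p x) w (f0 w) hpx.1 hpx.2 hw0 hw1 hw (hW2 w hw0 hw1)
      rw [this]
  -- the adjacency on the second orbit
  have hz0a : (fo z0 : Fin 275) ≠ 0 ∧ adjN 0 (fo z0) = false := by
    constructor
    · intro e
      have e1 := congrArg Fin.val e
      rw [fo_z0] at e1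
      have e2 := pts_adj.2.2.2.2.2.2.1
      rw [beq_false_iff] at e2
      exact e2 e1
    · rw [fo_z0]
      exact pts_adj.2.2.2.2.2.2.2.1
  have hadj2 : ∀ x y : Fin 275, (x ≠ 0 ∧ adjN 0 x = false) → (y ≠ 0 ∧ adjN 0 y = false) →
      (Γ.Adj (f0 x) (f0 y) ↔ adjN x y = true) := by
    refine pin (fun z => z ≠ 0 ∧ adjN 0 z = false) (fo z0) (fo z1) (fo z2) (fun x y => Γ.Adj (f0 x) (f0 y)) 56 ?_ ?_ ?_
      hz0a (Γ.loopless.irrefl _) ?_ ?_ ?_ ?_ ?_ ?_ (by norm_num) ?_
    · intro p hp x y _ _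
      obtain ⟨g, -, hg⟩ := hequi p hp
      rw [hg, hg]
      exact hinv g _ _
    · intro p hp z
      exact Y2_inv hp z
    · intro z hz
      exact tr2 z hz.1 hz.2
    · refine ⟨⟨?_, ?_⟩, ?_⟩
      · intro e
        have e1 := congrArg Fin.val e
        rw [fo_z1] at e1
        have e2 := pts_adj.2.2.2.2.2.2.2.2.1
        rw [beq_false_iff] at e2
        exact e2 e1
      · rw [fo_z1]
        exact pts_adj.2.2.2.2.2.2.2.2.2.1
      · rw [fo_z0, fo_z1]
        exact pts_adj.2.2.2.2.2.2.2.2.2.2.1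
    · refine ⟨⟨?_, ?_⟩, ?_, ?_⟩
      · intro e
        have e1 := congrArg Fin.val e
        rw [fo_z2] at e1
        have e2 := pts_adj.2.2.2.2.2.2.2.2.2.2.2.1
        rw [beq_false_iff] at e2
        exact e2 e1
      · rw [fo_z2]
        exact pts_adj.2.2.2.2.2.2.2.2.2.2.2.2.1
      · intro e
        have e1 := congrArg Fin.val e
        rw [fo_z0, fo_z2] at e1
        have e2 := pts_adj.2.2.2.2.2.2.2.2.2.2.2.2.2.2
        rw [beq_false_iff] at e2
        exact e2 e1.symm
      · rw [fo_z0, fo_z2]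
        exact pts_adj.2.2.2.2.2.2.2.2.2.2.2.2.2.1
    · intro y hy ha
      exact tr56 y hy.1 hy.2 ha
    · intro y hy hne ha
      exact tr105 y hy.1 hy.2 hne ha
    · rw [fo_z0]
      exact card_56
    · rw [fo_z0]
      have : (univ.filter fun y : Fin 275 => (y ≠ 0 ∧ adjN 0 y = false) ∧ y ≠ fo z0 ∧ adjN z0 y = false) =
          (univ.filter fun y : Fin 275 => (y ≠ 0 ∧ adjN 0 y = false) ∧ (y : ℕ) ≠ z0 ∧ adjN z0 y = false) := by
        ext y
        simp only [mem_filter, mem_univ, true_and]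
        have e : y ≠ fo z0 ↔ (y : ℕ) ≠ z0 := by
          rw [← fo_z0]
          exact Fin.val_ne_iff.symm
        rw [e]
      rw [this, card_105]
      norm_num
    · -- the count
      have hW0 := hW2 _ hz0a.1 hz0a.2
      set u := f0 (fo z0) with hu
      have h1 : (univ.filter fun x => Γ.Adj u (f0 x)).card = 112 := by
        rw [← card_nbr hΓ u]
        refine Finset.card_bij (fun x _ => f0 x) ?_ (fun x _ y _ e => hinj e) ?_
        · intro x hx
          simpa using hx
        · intro v hv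
          obtain ⟨x, rfl⟩ := hbij.2 v
          exact ⟨x, by simpa using hv, rfl⟩
      have h2 : (univ.filter fun x => Γ.Adj u (f0 x)) =
          (univ.filter fun y : Fin 275 => adjN 0 y = true ∧ adjN y (fo z0) = true) ∪
          (univ.filter fun x => (x ≠ 0 ∧ adjN 0 x = false) ∧ Γ.Adj u (f0 x)) := by
        ext x
        simp only [mem_filter, mem_univ, true_and, mem_union]
        rcases tri x with rfl | hx | ⟨hx, hx'⟩
        · rw [f00]
          simp only [hself, Bool.false_eq_true, false_and, ne_eq, not_true_eq_false, or_self, iff_false]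
          intro e
          exact hW0.2.1 e.symm
        · rw [f01 x hx]
          have e1 := hW0.2.2 x hx
          simp only [hx, Bool.true_eq_false, and_false, false_and, or_false, true_and]
          constructor
          · intro e
            exact e1.1 e.symm
          · intro e
            exact (e1.2 e).symm
        · simp [hx, hx']
      have h3 : Disjoint (univ.filter fun y : Fin 275 => adjN 0 y = true ∧ adjN y (fo z0) = true)
          (univ.filter fun x => (x ≠ 0 ∧ adjN 0 x = false) ∧ Γ.Adj u (f0 x)) := by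
        rw [Finset.disjoint_left]
        intro x hx hx'
        simp only [mem_filter, mem_univ, true_and] at hx hx'
        rw [hx.1] at hx'
        exact absurd hx'.1.2 (by simp)
      have h4 := card_mix
      rw [← fo_z0] at h4
      rw [h2, Finset.card_union_of_disjoint h3, h4] at h1
      omega
  -- the adjacency in general
  have hadj0 : ∀ y, Γ.Adj a (f0 y) ↔ adjN 0 y = true := by
    intro y
    rcases tri y with rfl | hy | ⟨hy, hy'⟩
    · rw [f00, hself]
      simp
    · rw [f01 y hy]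
      simp [hy, h.maps y hy]
    · simp [hy', (hW2 y hy hy').2.1]
  have hadj : ∀ x y, Γ.Adj (f0 x) (f0 y) ↔ adjN x y = true := by
    have hsymm : ∀ x y : Fin 275, (Γ.Adj (f0 x) (f0 y) ↔ adjN x y = true) → (Γ.Adj (f0 y) (f0 x) ↔ adjN y x = true) := by
      intro x y e
      rw [SimpleGraph.adj_comm, e, adj_comm']
    have h12 : ∀ x y : Fin 275, adjN 0 x = true → (y ≠ 0 ∧ adjN 0 y = false) → (Γ.Adj (f0 x) (f0 y) ↔ adjN x y = true) := by
      intro x y hx hy
      rw [f01 x hx]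
      exact (hW2 y hy.1 hy.2).2.2 x hx
    intro x y
    rcases tri x with rfl | hx | hx
    · rw [f00]
      exact hadj0 y
    · rcases tri y with rfl | hy | hy
      · apply hsymm
        rw [f00]
        exact hadj0 x
      · rw [f01 x hx, f01 y hy]
        exact h.adj x y hx hy
      · exact h12 x y hx hy
    · rcases tri y with rfl | hy | hy
      · apply hsymm
        rw [f00]
        exact hadj0 x
      · exact hsymm _ _ (h12 y x hy hx)
      · exact hadj2 x y hx hy
  exact ⟨Equiv.ofBijective f0 hbij, hadj⟩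

/-! ### The conclusion -/

section

open Cfsg.Agent.Lib.Sporadic.LeechMcL Cfsg.Agent.Lib.Sporadic.LeechMcLData Cfsg.Agent.Lib.Sporadic.LeechA0
  Cfsg.Agent.Lib.Sporadic.LeechEnum Cfsg.Agent.Lib.Sporadic.LeechBasic

theorem stab_eq : StabL FM = stabilizer Co0 a0 ⊓ stabilizer Co0 b0El := by
  ext g
  rw [mem_FM]
  rfl

theorem simple_K : IsSimpleGroup Cfsg.Agent.Lib.Sporadic.McLOut.Main.K := by
  haveI hs : IsSimpleGroup (StabL FM) := by
    rw [stab_eq]
    exact Cfsg.Agent.Lib.Sporadic.LeechMcT.simple_McL a0 b0El sqNorm_a0 sqNorm_b0 dot_a0_b0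
  exact (MonoidHom.ofInjective Cfsg.Agent.Lib.Sporadic.McLOut.Main.hRep.2).symm.isSimpleGroup

end

theorem finish [IsPretransitive G Ω] (hΩ : Fintype.card Ω = 275) (θ : stabilizer G a ≃* PP)
    (hinv : ∀ (g : G) (x y : Ω), Γ.Adj (g • x) (g • y) ↔ Γ.Adj x y) (f : Fin 275 ≃ Ω)
    (hf : ∀ x y, Γ.Adj (f x) (f y) ↔ adjN x y = true) : Cfsg.Spor.IsoMcL G := by
  classical
  let ψ : G →* Equiv.Perm (Fin 275) := (Equiv.permCongrHom f.symm).toMonoidHom.comp G.subtype
  have hψ : Function.Injective ψ :=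
    (Equiv.permCongrHom f.symm).injective.comp G.subtype_injective
  have happ : ∀ (g : G) (x : Fin 275), f (ψ g x) = g • f x := by
    intro g x
    show f (f.symm (g.1 (f x))) = g.1 (f x)
    simp
  have hle : ψ.range ≤ AutG := by
    rintro _ ⟨g, rfl⟩ x y
    apply Bool.eq_iff_iff.2
    rw [← hf, ← hf, happ, happ]
    exact hinv g _ _
  have hcG : Nat.card G = 898128000 := by
    have h1 := (stabilizer G a).card_mul_index
    have h2 : (stabilizer G a).index = 275 := by
      rw [index_stabilizer, orbit_eq_univ, Set.ncard_univ, Nat.card_eq_fintype_card, hΩ]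
    rw [h2, Nat.card_congr θ.toEquiv, card_PP] at h1
    omega
  have hc1 : Nat.card ψ.range = 898128000 := by
    rw [← hcG]
    exact (Nat.card_congr (MonoidHom.ofInjective hψ).toEquiv).symm
  have hc2 : Nat.card Cfsg.Agent.Lib.Sporadic.McLOut.Main.K = 898128000 :=
    Cfsg.Agent.Lib.Sporadic.McLOut.Main.card_K
  have heq : ψ.range = Cfsg.Agent.Lib.Sporadic.McLOut.Main.K :=
    eq_of_le_two AutG _ _ hle K_le_Aut 898128000 (card_AutG_le.trans (by norm_num)) hc1 hc2 (by norm_num) simple_K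
  obtain ⟨e⟩ := Cfsg.Agent.Lib.Sporadic.LeechGroups.exists_iso_McL
  exact ⟨(MonoidHom.ofInjective hψ).trans ((MulEquiv.subgroupCongr heq).trans
    ((MonoidHom.ofInjective Cfsg.Agent.Lib.Sporadic.McLOut.Main.hRep.2).symm.trans e.symm))⟩

end Cfsg.Agent.Lib.McLRank3.Spread
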